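import Mathlib

/-!
# A normal subgroup `R` and a subgroup `B` of small index: small orbits in `R ⊓ B` (helper979)
-/

set_option autoImplicit false

namespace Cfsg.Agent.H979.IFx.SmallOrb

open Subgroup

variable {G : Type*} [Group G] [Finite G]

theorem key (R B : Subgroup G) [R.Normal] : Nat.card R * (B ⊔ R).index = Nat.card ↥(R ⊓ B) * B.index := by
  have e1 : R.relIndex (B ⊔ R) = R.relIndex B := relIndex_sup_right B R
  have c1 : Nat.card R * R.relIndex (B ⊔ R) = Nat.card ↥(B ⊔ R) := by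
    have h := (R.subgroupOf (B ⊔ R)).card_mul_index
    rwa [Nat.card_congr (subgroupOfEquivOfLe (le_sup_right : R ≤ B ⊔ R)).toEquiv] at h
  have c2 : Nat.card ↥(R ⊓ B) * R.relIndex B = Nat.card B := by
    have h := (R.subgroupOf B).card_mul_index
    rw [← inf_subgroupOf_right R B] at h
    rw [Nat.card_congr (subgroupOfEquivOfLe (inf_le_right : R ⊓ B ≤ B)).toEquiv] at h
    rw [inf_subgroupOf_right R B] at h
    exact h
  have c3 := (B ⊔ R).card_mul_index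
  have c4 := B.card_mul_index
  rw [← c1, e1] at c3
  rw [← c2] at c4
  have hk : 0 < R.relIndex B := Nat.pos_of_ne_zero (index_ne_zero_of_finite)
  apply Nat.eq_of_mul_eq_mul_left hk
  calc R.relIndex B * (Nat.card R * (B ⊔ R).index) = Nat.card R * R.relIndex B * (B ⊔ R).index := by ring
    _ = Nat.card ↥(R ⊓ B) * R.relIndex B * B.index := by rw [c3, c4]
    _ = _ := by ring

theorem ncard_orb_le {Y : Subgroup G} {u : G} {S : Set G} (hS : ∀ y ∈ Y, y * u * y⁻¹ ∈ S) :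
    {b | ∃ g : G, g * u * g⁻¹ = b}.ncard ≤ Y.index * S.ncard := by
  let f : (G ⧸ Y) × S → G := fun p => p.1.out * p.2 * p.1.out⁻¹
  have h1 : {b | ∃ g : G, g * u * g⁻¹ = b} ⊆ Set.range f := by
    rintro _ ⟨g, rfl⟩
    have h2 : (g : G ⧸ Y).out⁻¹ * g ∈ Y := by
      rw [← QuotientGroup.eq]
      exact Quotient.out_eq' _
    refine ⟨⟨(g : G ⧸ Y), ⟨_, hS _ h2⟩⟩, ?_⟩
    show (g : G ⧸ Y).out * ((g : G ⧸ Y).out⁻¹ * g * u * ((g : G ⧸ Y).out⁻¹ * g)⁻¹) * (g : G ⧸ Y).out⁻¹ = _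
    group
  calc {b | ∃ g : G, g * u * g⁻¹ = b}.ncard ≤ (Set.range f).ncard := Set.ncard_le_ncard h1 (Set.toFinite _)
    _ ≤ Nat.card ((G ⧸ Y) × S) := by
      rw [← Nat.card_coe_set_eq]
      exact Finite.card_range_le f
    _ = Y.index * S.ncard := by
      rw [Nat.card_prod, Subgroup.index, Nat.card_coe_set_eq]

/-- **Small orbits.** -/
theorem exists_small {R B : Subgroup G} [R.Normal] {z : G} (hR : Nat.card R = 8192)
    (com : ∀ r ∈ R, ∀ s ∈ R, r * s = s * r ∨ r * s = z * (s * r)) (hzR : z ∈ R) (hzB : z ∈ B)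
    (hB : B.index ≤ 383) (hU : Nat.card ↥(R ⊓ B) ≤ 128) :
    ∃ u ∈ R ⊓ B, u ≠ 1 ∧ u ≠ z ∧ {b | ∃ g : G, g * u * g⁻¹ = b}.ncard ≤ 756 := by
  have h1 := key R B
  rw [hR] at h1
  have h0 : 0 < (B ⊔ R).index := Nat.pos_of_ne_zero index_ne_zero_of_finite
  have h2 : Nat.card ↥(R ⊓ B) * B.index ≤ 128 * 383 := Nat.mul_le_mul hU hB
  have h3 : (B ⊔ R).index ≤ 5 := by omega
  have h4 : 2 < Nat.card ↥(R ⊓ B) := by
    by_contra hcon
    have h5 : Nat.card ↥(R ⊓ B) * B.index ≤ 2 * 383 := Nat.mul_le_mul (by omega) hB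
    omega
  -- the element
  obtain ⟨u, hu, hu1, huz⟩ : ∃ u ∈ R ⊓ B, u ≠ 1 ∧ u ≠ z := by
    by_contra hcon
    push Not at hcon
    have h5 : ((R ⊓ B : Subgroup G) : Set G) ⊆ {1, z} := by
      intro x hx
      by_cases hx1 : x = 1
      · exact Or.inl hx1
      · exact Or.inr (hcon x hx hx1)
    have h6 : ((R ⊓ B : Subgroup G) : Set G).ncard ≤ ({1, z} : Set G).ncard := Set.ncard_le_ncard h5 (Set.toFinite _)
    have h7 : ({1, z} : Set G).ncard ≤ 2 := (Set.ncard_insert_le _ _).trans (by rw [Set.ncard_singleton])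
    have h8 : ((R ⊓ B : Subgroup G) : Set G).ncard = Nat.card ↥(R ⊓ B) := rfl
    omega
  refine ⟨u, hu, hu1, huz, ?_⟩
  -- `B ⊔ R` normalises `R ⊓ B`
  have hn : ∀ y ∈ B ⊔ R, ∀ w ∈ R ⊓ B, y * w * y⁻¹ ∈ R ⊓ B := by
    have hzw : ∀ y w : G, w ∈ R ⊓ B → y ∈ R → y * w * y⁻¹ ∈ R ⊓ B := by
      intro y w hw hy
      rcases com y hy w hw.1 with h | h
      · rwa [h, mul_inv_cancel_right]
      · rw [h]
        have : z * (w * y) * y⁻¹ = z * w := by group
        rw [this]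
        exact mul_mem ⟨hzR, hzB⟩ hw
    intro y hy
    rw [← SetLike.mem_coe, Subgroup.mul_normal B R, Set.mem_mul] at hy
    obtain ⟨b, hb, r, hr, rfl⟩ := hy
    intro w hw
    have h5 := hzw r w hw hr
    have h6 : b * r * w * (b * r)⁻¹ = b * (r * w * r⁻¹) * b⁻¹ := by group
    rw [h6]
    refine ⟨Subgroup.Normal.conj_mem inferInstance _ h5.1 b, ?_⟩
    exact B.mul_mem (B.mul_mem hb h5.2) (B.inv_mem hb)
  have h5 := ncard_orb_le (Y := B ⊔ R) (u := u) (S := ((R ⊓ B : Subgroup G) : Set G)) (fun y hy => hn y hy u hu)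
  have h6 : ((R ⊓ B : Subgroup G) : Set G).ncard = Nat.card ↥(R ⊓ B) := rfl
  rw [h6] at h5
  have h7 : (B ⊔ R).index * Nat.card ↥(R ⊓ B) ≤ 5 * 128 := Nat.mul_le_mul h3 hU
  omega

end Cfsg.Agent.H979.IFx.SmallOrb
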