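import Cfsg.Agent.H979.IFx.Fi24Four
import Cfsg.Agent.H979.IFx.SmallOrb
import Cfsg.Agent.KFacts.FiTF.SheetF
import Cfsg.Agent.R08.TetFi24C
import Cfsg.Agent.H399.IF.Tools

/-!
# S5719, `Fi24'`: no involution of class 2B (helper979)
-/

set_option autoImplicit false
set_option linter.unusedSectionVars false

namespace Cfsg.Agent.H979.IFx.Fi24B

open Subgroup Cfsg Cfsg.Spor
open Cfsg.Agent.H209.Fxy
open Cfsg.Agent.LargeExtra.Model Cfsg.Agent.LargeExtra.Pres Cfsg.Agent.KFacts.Codes
open Cfsg.Agent.KFacts.FiTF Cfsg.Agent.KFacts.FiTF.Lin Cfsg.Agent.KFacts.FiTF.OrbSys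
open Cfsg.Agent.H979.IFx.Four

theorem OL_ok : ∀ v ∈ OL, v < 4096 ∧ Om.OM.testBit v = true := by
  have h : (OL.all fun v => Nat.blt v 4096 && Om.OM.testBit v) = true := by decide +kernel
  intro v hv
  have h1 := List.all_eq_true.1 h v hv
  rw [Bool.and_eq_true] at h1
  exact ⟨Nat.le_of_ble_eq_true h1.1, h1.2⟩

theorem OL_length : OL.length = 378 := by decide +kernel

section four

variable {F : Type*} [Group F] [Finite F] {z : F} {x y : ℕ → F} {E : Subgroup F} (h : Sys z x y E)
include h

theorem cod_om {v : ℕ} (hv : v ∈ OL) : cod 12 z x v ∈ OmSet 12 Om.OM z x := by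
  obtain ⟨h1, h2⟩ := OL_ok v hv
  refine ⟨v, by norm_num; omega, ?_, rfl⟩
  rwa [Nat.mod_eq_of_lt (by norm_num; omega)]

/-- **A subgroup of `R` containing `z` and none of the 756 has order at most 128.** -/
theorem card_le {U : Subgroup F} (hU : U ≤ RG 12 z x) (hz : z ∈ U) (hO : ∀ u ∈ U, u ∉ OmSet 12 Om.OM z x) :
    Nat.card U ≤ 128 := by
  classical
  set R := RG 12 z x with hR
  set V := U.subgroupOf R with hV
  have hcom : ∀ r ∈ R, ∀ s ∈ R, r * s = s * r ∨ r * s = z * (s * r) := fun r hr s hs => RG_comm h.rel Om.tri hr hs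
  have hn : V.Normal := by
    constructor
    rintro ⟨u, hu⟩ hu' ⟨r, hr⟩
    rw [mem_subgroupOf] at hu' ⊢
    show r * u * r⁻¹ ∈ U
    rcases hcom r hr u hu with h1 | h1
    · rwa [h1, mul_inv_cancel_right]
    · rw [h1]
      have h2 : z * (u * r) * r⁻¹ = z * u := by group
      rw [h2]
      exact mul_mem hz hu'
  let iQ : CommGroup (R ⧸ V) := { QuotientGroup.Quotient.group V with
    mul_comm := by
      intro a b
      induction a using QuotientGroup.induction_on with
      | H a =>
        induction b using QuotientGroup.induction_on with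
        | H b =>
          rw [← QuotientGroup.mk_mul, ← QuotientGroup.mk_mul, QuotientGroup.eq]
          rw [mem_subgroupOf]
          show (((a : F) * b)⁻¹ * ((b : F) * a)) ∈ U
          rcases hcom a a.2 b b.2 with h1 | h1
          · rw [h1, inv_mul_cancel]; exact one_mem _
          · rw [h1]
            have h3 : z * ((b : F) * a) = ((b : F) * a) * z := by
              obtain ⟨c, -, hc⟩ := (mem_RG h.rel Om.tri).1 (R.mul_mem b.2 a.2)
              rw [← hc, cod_comm_z h.rel]
            rw [h3, mul_inv_rev, mul_assoc, inv_mul_cancel, mul_one]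
            exact inv_mem hz }
  have hmkz : ∀ a b : R, OrbSys.Ez z (a : F) b → (a : R ⧸ V) = (b : R ⧸ V) := by
    intro a b hab
    rw [QuotientGroup.eq, mem_subgroupOf]
    show (a : F)⁻¹ * b ∈ U
    rcases hab with h1 | h1
    · rw [h1, inv_mul_cancel]; exact one_mem _
    · rw [h1]
      have h3 : z * (b : F) = b * z := by
        obtain ⟨c, -, hc⟩ := (mem_RG h.rel Om.tri).1 b.2
        rw [← hc, cod_comm_z h.rel]
      rw [h3, mul_inv_rev, mul_assoc, inv_mul_cancel, mul_one]
      exact inv_mem hz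
  have hmk2 : ∀ q : R ⧸ V, q * q = 1 := by
    intro q
    induction q using QuotientGroup.induction_on with
    | H a =>
      rw [← QuotientGroup.mk_mul, ← QuotientGroup.mk_one]
      apply hmkz
      rcases RG_sq h.rel Om.tri a.2 with h1 | h1
      · exact Or.inl h1
      · refine Or.inr ?_
        show (a : F) * a = z * 1
        rw [h1, mul_one]
  -- the classes of the codes
  let κ : ℕ → R := fun c => ⟨cod 12 z x c, cod_mem c⟩
  let m : ℕ → Additive (R ⧸ V) := fun c => Additive.ofMul ((κ c : R) : R ⧸ V)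
  have hmx : ∀ c d, m (c ^^^ d) = m c + m d := by
    intro c d
    show Additive.ofMul _ = Additive.ofMul _ + Additive.ofMul _
    rw [← ofMul_mul, ← QuotientGroup.mk_mul]
    congr 1
    symm
    apply hmkz
    exact ez_mul h.rel Om.tri c d
  have hm0 : m 0 = 0 := by
    have h1 := hmx 0 0
    rw [Nat.xor_self] at h1
    exact left_eq_add.1 h1
  let : Fintype (R ⧸ V) := Fintype.ofFinite _
  let : Fintype (Additive (R ⧸ V)) := Fintype.ofFinite _
  have key := dual_bound (Q := Additive (R ⧸ V)) (OL.map m) (by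
      intro q hq
      rw [List.mem_map] at hq
      obtain ⟨v, hv, rfl⟩ := hq
      intro h0
      have h1 : ((κ v : R) : R ⧸ V) = 1 := h0
      rw [QuotientGroup.eq_one_iff, mem_subgroupOf] at h1
      exact hO _ h1 (cod_om h hv))
    (fun q => hmk2 q) (N := 192) (by
      intro ψ
      have hpm := addChar_pm (Q := Additive (R ⧸ V)) (fun q => hmk2 q) ψ
      set ε : ℕ → Bool := fun k => decide (ψ (m (2 ^ k)) ≠ 1) with hε
      have h1 : ∀ v k, ψ (m (v % 2 ^ k)) = if par ε v k = true then -1 else 1 := by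
        intro v k
        induction k with
        | zero =>
          rw [pow_zero, Nat.mod_one, hm0, AddChar.map_zero_eq_one]
          rfl
        | succ k ih =>
          have h2 : v % 2 ^ (k + 1) = (v % 2 ^ k) ^^^ (if v.testBit k = true then 2 ^ k else 0) := by
            apply Nat.eq_of_testBit_eq
            intro i
            rw [Nat.testBit_xor, Nat.testBit_mod_two_pow, Nat.testBit_mod_two_pow]
            rcases lt_trichotomy i k with h3 | rfl | h3
            · split_ifs
              · rw [Nat.testBit_two_pow_of_ne (by omega)]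
                simp [h3, show i < k + 1 by omega]
              · simp [h3, show i < k + 1 by omega]
            · by_cases h4 : v.testBit i = true
              · simp [h4]
              · simp [h4]
            · split_ifs
              · rw [Nat.testBit_two_pow_of_ne (by omega)]
                simp [show ¬ i < k by omega, show ¬ i < k + 1 by omega]
              · simp [show ¬ i < k by omega, show ¬ i < k + 1 by omega]
          rw [h2, hmx, AddChar.map_add_eq_mul, ih]
          by_cases h4 : v.testBit k = true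
          · rw [if_pos h4]
            rcases hpm (m (2 ^ k)) with h5 | h5
            · have h6 : ε k = false := by rw [hε]; simp [h5]
              have h7 : par ε v (k + 1) = par ε v k := by simp [par, h6]
              rw [h5, h7, mul_one]
            · have h6 : ε k = true := by
                rw [hε]
                simp only [ne_eq, decide_not, Bool.not_eq_eq_eq_not, Bool.not_true, decide_eq_false_iff_not, h5]
                norm_num
              have h7 : par ε v (k + 1) = !(par ε v k) := by simp [par, h6, h4]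
              rw [h5, h7]
              cases par ε v k <;> simp
          · rw [if_neg h4, hm0, AddChar.map_zero_eq_one, mul_one]
            have h7 : par ε v (k + 1) = par ε v k := by simp [par, h4]
            rw [h7]
      have h2 : (OL.map m).countP (fun q => decide (ψ q ≠ 1)) = OL.countP (fun v => par ε v 12) := by
        rw [List.countP_map]
        apply List.countP_congr
        intro v hv
        have h3 := h1 v 12
        rw [Nat.mod_eq_of_lt (by have := (OL_ok v hv).1; norm_num; omega)] at h3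
        show decide (ψ (m v) ≠ 1) = true ↔ _
        rw [h3]
        cases par ε v 12
        · simp
        · simp only [if_true, decide_eq_true_eq, iff_true]
          norm_num
      rw [h2]
      exact count_le ε)
  rw [List.length_map, OL_length] at key
  have c1 : Fintype.card (Additive (R ⧸ V)) = Nat.card (R ⧸ V) := by
    rw [← Nat.card_eq_fintype_card]
    rfl
  rw [c1] at key
  have c2 : Nat.card V = Nat.card U := Nat.card_congr (subgroupOfEquivOfLe hU).toEquiv
  have c3 := V.card_mul_index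
  have c3' : Nat.card U * Nat.card (R ⧸ V) = 8192 := by
    rw [c2, Subgroup.index, card_RG h.rel Om.tri Om.nondeg h.z1] at c3
    exact c3
  have c4 : 64 ≤ Nat.card (R ⧸ V) := by
    have : 0 < Nat.card (R ⧸ V) := Nat.card_pos
    omega
  by_contra hcon
  have c5 : 129 * 64 ≤ Nat.card U * Nat.card (R ⧸ V) := Nat.mul_le_mul (by omega) c4
  omega

end four

/-! ### The involution `z` -/

/-- the involution `z` of `Fi24'` -/
def zT : Spor.Fi24' := Abs.zK frame

theorem zT_coe : (zT : Spor.Fi24) = Defs.z := rfl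

theorem zT_order : orderOf zT = 2 := by
  refine orderOf_eq_prime ?_ ?_
  · rw [pow_two]
    exact Subtype.ext frame.zz
  · intro h1
    exact frame.z1 (congrArg Subtype.val h1)

theorem index_zT : (centralizer ({zT} : Set Spor.Fi24')).index = 7819305288795 := by
  have := R08.FiTwentyFour.finite_Fi24
  have h2 := KFacts.FiTF.Abs.card_CK KFacts.FiTF.frame
  rw [KFacts.FiTF.Order.card] at h2
  change Nat.card (centralizer ({zT} : Set Spor.Fi24')) * 2 = _ at h2
  have h3 := (centralizer ({zT} : Set Spor.Fi24')).card_mul_index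
  rw [R08.FiTwentyFour.card_commutator] at h3
  have h4 : Nat.card (centralizer ({zT} : Set Spor.Fi24')) = 160526499840 := by omega
  rw [h4] at h3
  omega

/-- **`z ∉ A`** -/
theorem no_zT (hna : ∃ a b : Spor.Fi24', a * b ≠ b * a) [IsSimpleGroup Spor.Fi24']
    {A : Subgroup Spor.Fi24'} {Γ : Subgroup (MulAut Spor.Fi24')} (h : IF A Γ)
    (hno : ∀ a ∈ R08.FiTwentyFour.L, ∀ b ∈ R08.FiTwentyFour.L, a ≠ b → Commute a b →
      ∀ t : Spor.Fi24', (t : Spor.Fi24) = a * b → t ∉ A) (hz : zT ∈ A) : False := by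
  have hfin : Finite Spor.Fi24 := R08.FiTwentyFour.finite_Fi24
  have hFr := frame
  set K : Subgroup Spor.Fi24 := commutator Spor.Fi24 with hK
  set A' : Subgroup Spor.Fi24 := A.map K.subtype with hA'
  have hmemA : ∀ g : Spor.Fi24, g ∈ A' ↔ ∃ t : Spor.Fi24', t ∈ A ∧ (t : Spor.Fi24) = g := fun g => Iff.rfl
  -- the index
  have hEc : Defs.E.subgroupOf K ≤ centralizer ({zT} : Set Spor.Fi24') := by
    intro g hg
    rw [mem_centralizer_singleton_iff]
    exact Subtype.ext (hFr.Ez _ hg)
  have hidx : A'.relIndex Defs.E ≤ 383 := by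
    have h1 := ((H999.IFB.IF.E2' h hna hz zT_order).2.2.2.2 _ hEc).1
    rw [index_zT] at h1
    have h2 : A'.relIndex Defs.E = A.relIndex (Defs.E.subgroupOf K) := by
      rw [← relIndex_map_map_of_injective A (Defs.E.subgroupOf K) K.subtype_injective,
        Subgroup.map_subgroupOf_eq_of_le hFr.EK]
    rw [h2]
    by_contra hcon
    have h3 : 384 ^ 5 ≤ A.relIndex (Defs.E.subgroupOf K) ^ 5 := Nat.pow_le_pow_left (by omega) 5
    omega
  have hRE := hFr.RE
  have hnR : (Defs.R.subgroupOf Defs.E).Normal := by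
    constructor
    rintro ⟨r, hr⟩ hr' ⟨g, hg⟩
    rw [mem_subgroupOf] at hr' ⊢
    exact hFr.norm g (hFr.Ez g hg) r hr'
  have hzA' : Defs.z ∈ A' := (hmemA _).2 ⟨zT, hz, rfl⟩
  have hOmA : ∀ g ∈ A', g ∉ RQ.Om := by
    rintro _ ⟨t, ht, rfl⟩ hg
    obtain ⟨e, f, hef, he⟩ := RQ.om_pair hg
    obtain ⟨h1, h2, h3, h4⟩ := hef.mem
    exact hno e h1 f h2 h4 h3 t he ht
  have hcU : Nat.card ↥(Defs.R ⊓ A') ≤ 128 :=
    card_le RQ.sys (U := Defs.R ⊓ A') inf_le_left ⟨hFr.zR, hzA'⟩ fun u hu => hOmA u hu.2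
  obtain ⟨u, hu, hu1, huz, hun⟩ := SmallOrb.exists_small (R := Defs.R.subgroupOf Defs.E) (B := A'.subgroupOf Defs.E)
    (z := ⟨Defs.z, hRE hFr.zR⟩)
    (by rw [Nat.card_congr (subgroupOfEquivOfLe hRE).toEquiv]; exact hFr.cardR)
    (by
      rintro ⟨r, hr⟩ hr' ⟨s, hs⟩ hs'
      rcases hFr.com r hr' s hs' with h1 | h1
      · exact Or.inl (Subtype.ext h1)
      · exact Or.inr (Subtype.ext h1))
    hFr.zR hzA' hidx
    (by
      have h1 : (Defs.R.subgroupOf Defs.E ⊓ A'.subgroupOf Defs.E) = (Defs.R ⊓ A').subgroupOf Defs.E := rfl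
      rw [h1, Nat.card_congr (subgroupOfEquivOfLe (inf_le_left.trans hRE)).toEquiv]
      exact hcU)
  have h1 := hFr.OmOther (u : Spor.Fi24) hu.1 (fun h1 => hu1 (Subtype.ext h1)) (fun h1 => huz (Subtype.ext h1))
    (hOmA _ hu.2)
  have h2 : {b : Spor.Fi24 | ∃ g ∈ Defs.E, g * (u : Spor.Fi24) * g⁻¹ = b} =
      Subtype.val '' {b : Defs.E | ∃ g : Defs.E, g * u * g⁻¹ = b} := by
    ext b
    constructor
    · rintro ⟨g, hg, rfl⟩
      exact ⟨⟨g, hg⟩ * u * ⟨g, hg⟩⁻¹, ⟨⟨g, hg⟩, rfl⟩, rfl⟩
    · rintro ⟨_, ⟨g, rfl⟩, rfl⟩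
      exact ⟨g, g.2, rfl⟩
  rw [h2, Set.ncard_image_of_injective _ Subtype.val_injective] at h1
  omega

/-! ### Tetrads -/

/-- **No involution of class 2B.** -/
theorem twoB (hna : ∃ a b : Spor.Fi24', a * b ≠ b * a) [IsSimpleGroup Spor.Fi24']
    {A : Subgroup Spor.Fi24'} {Γ : Subgroup (MulAut Spor.Fi24')} (h : IF A Γ)
    (hno : ∀ a ∈ R08.FiTwentyFour.L, ∀ b ∈ R08.FiTwentyFour.L, a ≠ b → Commute a b →
      ∀ t : Spor.Fi24', (t : Spor.Fi24) = a * b → t ∉ A) {t : Spor.Fi24'} {a b c d : Spor.Fi24}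
    (ht : R08.TetTwo.IsTet R08.FiTwentyFour.L (t : Spor.Fi24) a b c d) (htA : t ∈ A) : False := by
  obtain ⟨g, hg, h1, h2, h3, h4⟩ := R08.TetBig.quad R08.TetBigInst.hyp ht (Tet.isTet (t := 0) (by norm_num))
  set k : Spor.Fi24' := ⟨g, hg⟩ with hk
  have h5 : k * t * k⁻¹ = zT := by
    apply Subtype.ext
    show g * (t : Spor.Fi24) * g⁻¹ = Defs.z
    calc g * (t : Spor.Fi24) * g⁻¹ = g * (a * b * c * d) * g⁻¹ := by rw [ht.prod]
      _ = (g * a * g⁻¹) * (g * b * g⁻¹) * (g * c * g⁻¹) * (g * d * g⁻¹) := by group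
      _ = Defs.z := by rw [h1, h2, h3, h4, (Tet.isTet (t := 0) (by norm_num)).prod]
  refine no_zT hna (h.map (MulAut.conj k)) ?_ ?_
  · rintro x hx y hy hne hxy s hs ⟨s', hs', rfl⟩
    have h6 : (k * s' * k⁻¹ : Spor.Fi24') = (MulAut.conj k) s' := rfl
    refine hno (g⁻¹ * x * g) ?_ (g⁻¹ * y * g) ?_ ?_ ?_ s' ?_ hs'
    · have := R08.FiTwentyFour.conj hx g⁻¹
      rwa [inv_inv] at this
    · have := R08.FiTwentyFour.conj hy g⁻¹
      rwa [inv_inv] at this
    · intro h7
      exact hne (by simpa using h7)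
    · show g⁻¹ * x * g * (g⁻¹ * y * g) = g⁻¹ * y * g * (g⁻¹ * x * g)
      calc g⁻¹ * x * g * (g⁻¹ * y * g) = g⁻¹ * (x * y) * g := by group
        _ = g⁻¹ * (y * x) * g := by rw [hxy.eq]
        _ = _ := by group
    · have h7 : g * (s' : Spor.Fi24) * g⁻¹ = x * y := hs
      calc (s' : Spor.Fi24) = g⁻¹ * (g * (s' : Spor.Fi24) * g⁻¹) * g := by group
        _ = g⁻¹ * x * g * (g⁻¹ * y * g) := by rw [h7]; group
  · exact ⟨t, htA, h5⟩

end Cfsg.Agent.H979.IFx.Fi24B
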